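import Mathlib.RingTheory.Flat.FaithfullyFlat.Basic
import Mathlib.RingTheory.Flat.FaithfullyFlat.Algebra
import Mathlib.RingTheory.RingHom.Flat
import Mathlib.RingTheory.RingHom.FaithfullyFlat
import Mathlib.LinearAlgebra.TensorProduct.Tower

/-! Helper lemmas (helper7): descent of flatness along faithfully flat maps. -/

set_option autoImplicit false
universe u

namespace Groth.Agent.Lib.Helper7

open TensorProduct

/-- If `C` is flat over `A` and faithfully flat over `B` (tower `A → B → C`) then `B` is flat
over `A`. -/
theorem flat_of_flat_of_faithfullyFlat (A B C : Type u) [CommRing A] [CommRing B] [CommRing C]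
    [Algebra A B] [Algebra B C] [Algebra A C] [IsScalarTower A B C]
    [Module.Flat A C] [Module.FaithfullyFlat B C] : Module.Flat A B := by
  rw [Module.Flat.iff_lTensor_preserves_injective_linearMap]
  intro N N' _ _ _ _ f hf
  have h1 : Function.Injective (LinearMap.lTensor C f) :=
    Module.Flat.lTensor_preserves_injective_linearMap f hf
  let F : B ⊗[A] N →ₗ[B] B ⊗[A] N' := LinearMap.baseChange B f
  let e := AlgebraTensorModule.cancelBaseChange A B C C N
  let e' := AlgebraTensorModule.cancelBaseChange A B C C N'
  have key : ∀ x, e' (LinearMap.lTensor C F x) = LinearMap.lTensor C f (e x) := by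
    intro x
    induction x using TensorProduct.induction_on with
    | zero => simp
    | tmul c y =>
      induction y using TensorProduct.induction_on with
      | zero => simp
      | tmul b n => simp [F, e, e']
      | add y₁ y₂ h₁ h₂ => simp only [tmul_add, map_add, h₁, h₂]
    | add x₁ x₂ h₁ h₂ => simp only [map_add, h₁, h₂]
  have h2 : Function.Injective (LinearMap.lTensor C F) := by
    intro x y hxy
    have := congrArg e' hxy
    rw [key, key] at this
    exact e.injective (h1 this)
  have h3 : Function.Injective F :=
    (Module.FaithfullyFlat.lTensor_injective_iff_injective B C F).mp h2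
  exact h3

/-- Ring-hom version: if `g ∘ f` is flat and `g` is faithfully flat, then `f` is flat. -/
theorem RingHom.flat_of_comp_of_faithfullyFlat {A B C : Type u} [CommRing A] [CommRing B]
    [CommRing C] (f : A →+* B) (g : B →+* C) (hgf : (g.comp f).Flat) (hg : g.FaithfullyFlat) :
    f.Flat := by
  algebraize [f, g, g.comp f]
  exact flat_of_flat_of_faithfullyFlat A B C

end Groth.Agent.Lib.Helper7
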