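import Mathlib.AlgebraicGeometry.Geometrically.Basic
import Mathlib.AlgebraicGeometry.PullbackCarrier
import Mathlib.AlgebraicGeometry.ResidueField
import Mathlib.AlgebraicGeometry.Morphisms.Basic

/-! Helper lemmas (helper7): descent of geometric properties along surjections. -/

set_option autoImplicit false
universe u
open CategoryTheory CategoryTheory.Limits AlgebraicGeometry

namespace Groth.Agent.Lib.Helper7

/-- If `P` is transported along surjective morphisms, then `geometrically P` descends along a
surjective base change. -/
theorem geometrically_of_pullback_snd_of_surjective (P : ObjectProperty Scheme.{u})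
    (hP : ∀ {Z W : Scheme.{u}} (φ : Z ⟶ W), Function.Surjective φ → P Z → P W)
    {X Y Y' : Scheme.{u}} (f : X ⟶ Y) (g : Y' ⟶ Y) [Surjective g]
    (h : geometrically P (pullback.snd f g)) : geometrically P f := by
  intro K _ y Z fst snd hZ
  obtain ⟨w, -⟩ := (pullback.fst y g).surjective (default : Spec (.of K))
  let ι := (pullback y g).fromSpecResidueField w
  let a := ι ≫ pullback.fst y g
  let b := ι ≫ pullback.snd y g
  have hab : b ≫ g = a ≫ y := by simp [a, b, pullback.condition]
  have h1 : P (pullback (pullback.snd f g) b) := h b _ _ (IsPullback.of_hasPullback _ _)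
  have sq1 : IsPullback (pullback.fst (pullback.snd f g) b ≫ pullback.fst f g)
      (pullback.snd _ b) f (a ≫ y) := by
    rw [← hab]; exact (IsPullback.of_hasPullback _ _).paste_horiz (IsPullback.of_hasPullback f g)
  have sq2 : IsPullback (pullback.fst snd a ≫ fst) (pullback.snd snd a) f (a ≫ y) :=
    (IsPullback.of_hasPullback snd a).paste_horiz hZ
  let e := IsPullback.isoIsPullback _ _ sq1 sq2
  have h2 : P (pullback snd a) := hP e.hom (e.hom.homeomorph.surjective) h1
  have : Surjective a := ⟨fun x => ⟨default, Subsingleton.elim _ _⟩⟩
  exact hP (pullback.fst snd a) (pullback.fst snd a).surjective h2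

end Groth.Agent.Lib.Helper7
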