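import Groth.Agent.Lib.Helper7.Graded

/-!
# Monomial decomposition of homogeneous components (helper7)

For an ℕ-graded algebra `A` of finite type over `𝒜 0`, with homogeneous generators `xᵢ` of
positive degrees `dᵢ`, put `e = ∏ dᵢ` and `eᵢ = e / dᵢ`. Every element of `𝒜 N` is a sum of terms
`c * x^γ * z` with `c ∈ 𝒜 0`, `γᵢ < eᵢ`, `z ∈ (𝒜 e)^k` and `deg x^γ + k e = N`.
-/

set_option autoImplicit false
universe u

namespace Groth.Agent.Lib.Helper7

open DirectSum

variable {R A : Type u} [CommRing R] [CommRing A] [Algebra R A] (𝒜 : ℕ → Submodule R A)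
  [GradedAlgebra 𝒜]

theorem mul_le_graded (a b : ℕ) : (𝒜 a : Submodule R A) * 𝒜 b ≤ 𝒜 (a + b) :=
  Submodule.mul_le.mpr fun _ hx _ hy ↦ SetLike.mul_mem_graded hx hy

theorem pow_le_graded (e : ℕ) : ∀ j, (𝒜 e : Submodule R A) ^ j ≤ 𝒜 (j * e)
  | 0 => by
    intro x hx
    rw [Submodule.pow_zero, Submodule.mem_one] at hx
    obtain ⟨y, rfl⟩ := hx
    rw [zero_mul]
    exact SetLike.algebraMap_mem_graded 𝒜 y
  | j + 1 => by
    rw [Submodule.pow_succ, add_mul, one_mul]
    exact (Submodule.smul_mono (pow_le_graded e j) le_rfl).trans (mul_le_graded 𝒜 _ _)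

theorem submodule_pow_mono {M N : Submodule R A} (h : M ≤ N) : ∀ j, M ^ j ≤ N ^ j
  | 0 => le_rfl
  | j + 1 => by
    rw [Submodule.pow_succ, Submodule.pow_succ]
    exact Submodule.smul_mono (submodule_pow_mono h j) h

theorem exists_monomial_decomp [Algebra.FiniteType (𝒜 0) A] :
    ∃ (s : Finset A) (dv : A → ℕ) (e : ℕ) (ee : A → ℕ), 0 < e ∧ (∀ i ∈ s, i ∈ 𝒜 (dv i)) ∧
      (∀ i ∈ s, ee i * dv i = e) ∧ (∀ i ∈ s, 0 < ee i) ∧
      ∀ N, ∀ a ∈ 𝒜 N, a ∈ AddSubmonoid.closure
        {y | ∃ c ∈ 𝒜 0, ∃ γ : s → ℕ, (∀ i, γ i < ee i) ∧ ∃ k, ∃ z ∈ (𝒜 e : Submodule R A) ^ k,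
          ∑ i : s, γ i * dv (i : A) + k * e = N ∧ y = c * (∏ i : s, (i : A) ^ γ i) * z} := by
  classical
  obtain ⟨s, hs, hs'⟩ := GradedAlgebra.exists_finset_adjoin_eq_top_and_homogeneous_ne_zero 𝒜
  choose! deg hdeg0 hdeg using hs'
  let e : ℕ := ∏ i ∈ s, deg i
  let ee : A → ℕ := fun i ↦ ∏ j ∈ s.erase i, deg j
  have he : 0 < e := Finset.prod_pos fun i hi ↦ Nat.pos_of_ne_zero (hdeg0 i hi)
  have hee : ∀ i ∈ s, ee i * deg i = e := fun i hi ↦ Finset.prod_erase_mul s deg hi
  have hee0 : ∀ i ∈ s, 0 < ee i := fun i _ ↦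
    Finset.prod_pos fun j hj ↦ Nat.pos_of_ne_zero (hdeg0 j (Finset.mem_of_mem_erase hj))
  refine ⟨s, deg, e, ee, he, hdeg, hee, hee0, ?_⟩
  let v : s → A := Subtype.val
  let dv : s → ℕ := fun i ↦ deg i.1
  have hv : ∀ i, v i ∈ 𝒜 (dv i) := fun i ↦ hdeg i.1 i.2
  let mono : (s → ℕ) → A := fun γ ↦ ∏ i, v i ^ γ i
  let dg : (s → ℕ) → ℕ := fun γ ↦ ∑ i, γ i * dv i
  have hmono : ∀ γ, mono γ ∈ 𝒜 (dg γ) := by
    intro γ
    have := SetLike.prod_pow_mem_graded 𝒜 dv v γ (F := Finset.univ) (fun i _ ↦ hv i)
    simpa [mono, dg, smul_eq_mul] using this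
  have mono_update : ∀ γ i k, mono γ * v i ^ k = mono (Function.update γ i k) * v i ^ (γ i) := by
    intro γ i k
    simp only [mono]
    rw [← Finset.mul_prod_erase Finset.univ (fun j ↦ v j ^ (Function.update γ i k j))
      (Finset.mem_univ i), ← Finset.mul_prod_erase Finset.univ (fun j ↦ v j ^ γ j)
      (Finset.mem_univ i)]
    have : ∏ j ∈ Finset.univ.erase i, v j ^ (Function.update γ i k j) =
        ∏ j ∈ Finset.univ.erase i, v j ^ γ j :=
      Finset.prod_congr rfl fun j hj ↦ by rw [Function.update_of_ne (Finset.ne_of_mem_erase hj)]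
    rw [this, Function.update_self]
    ring
  have dg_update : ∀ γ i k, dg (Function.update γ i k) + γ i * dv i = dg γ + k * dv i := by
    intro γ i k
    simp only [dg]
    rw [← Finset.add_sum_erase Finset.univ (fun j ↦ (Function.update γ i k j) * dv j)
      (Finset.mem_univ i), ← Finset.add_sum_erase Finset.univ (fun j ↦ γ j * dv j)
      (Finset.mem_univ i)]
    have : ∑ j ∈ Finset.univ.erase i, (Function.update γ i k j) * dv j =
        ∑ j ∈ Finset.univ.erase i, γ j * dv j :=
      Finset.sum_congr rfl fun j hj ↦ by rw [Function.update_of_ne (Finset.ne_of_mem_erase hj)]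
    rw [this, Function.update_self]
    ring
  let S : ℕ → AddSubmonoid A := fun N ↦ AddSubmonoid.closure
    {y | ∃ c ∈ 𝒜 0, ∃ γ : s → ℕ, (∀ i, γ i < ee i) ∧ ∃ k, ∃ z ∈ (𝒜 e : Submodule R A) ^ k,
          ∑ i : s, γ i * dv i + k * e = N ∧ y = c * (∏ i : s, (i : A) ^ γ i) * z}
  have hspan : (HomogeneousIdeal.irrelevant 𝒜).toIdeal = Ideal.span (s : Set A) :=
    irrelevant_eq_span_of_adjoin_eq_top 𝒜 (s : Set A)
      (fun e he ↦ ⟨deg e, Nat.pos_of_ne_zero (hdeg0 e he), hdeg e he⟩) hs
  have step : ∀ N (i : s), dv i ≤ N → ∀ y ∈ S (N - dv i), y * v i ∈ S N := by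
    intro N i hiN y hy
    induction hy using AddSubmonoid.closure_induction with
    | mem y hy =>
      obtain ⟨c, hc, γ, hγ, k, z, hz, hdγ, rfl⟩ := hy
      have hdγ' : dg γ + k * e = N - dv i := hdγ
      by_cases hlt : γ i + 1 < ee i
      · apply AddSubmonoid.subset_closure
        refine ⟨c, hc, Function.update γ i (γ i + 1), ?_, k, z, hz, ?_, ?_⟩
        · intro j
          by_cases hj : j = i
          · subst hj; simpa using hlt
          · rw [Function.update_of_ne hj]; exact hγ j
        · have := dg_update γ i (γ i + 1)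
          show dg (Function.update γ i (γ i + 1)) + k * e = N
          rw [add_mul, one_mul] at this
          omega
        · have := mono_update γ i (γ i + 1)
          rw [pow_succ, ← mul_assoc] at this
          have e' : mono γ * v i = mono (Function.update γ i (γ i + 1)) := by
            simp only [mono]
            rw [← Finset.mul_prod_erase Finset.univ
              (fun j ↦ v j ^ (Function.update γ i (γ i + 1) j)) (Finset.mem_univ i),
              ← Finset.mul_prod_erase Finset.univ (fun j ↦ v j ^ γ j) (Finset.mem_univ i)]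
            have : ∏ j ∈ Finset.univ.erase i, v j ^ (Function.update γ i (γ i + 1) j) =
                ∏ j ∈ Finset.univ.erase i, v j ^ γ j :=
              Finset.prod_congr rfl fun j hj ↦ by
                rw [Function.update_of_ne (Finset.ne_of_mem_erase hj)]
            rw [this, Function.update_self, pow_succ]
            ring
          change c * mono γ * z * v i = c * mono (Function.update γ i (γ i + 1)) * z
          rw [← e']; ring
      · have hid : γ i + 1 = ee i := by have := hγ i; omega
        apply AddSubmonoid.subset_closure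
        have hvi : v i ^ ee i ∈ 𝒜 e := by
          have := SetLike.pow_mem_graded (ee i) (hv i)
          rwa [smul_eq_mul, hee i.1 i.2] at this
        refine ⟨c, hc, Function.update γ i 0, ?_, k + 1, v i ^ ee i * z, ?_, ?_, ?_⟩
        · intro j
          by_cases hj : j = i
          · subst hj; simpa using hee0 _ j.2
          · rw [Function.update_of_ne hj]; exact hγ j
        · rw [Submodule.pow_succ, mul_comm]
          exact Submodule.mul_mem_mul hvi hz
        · have := dg_update γ i 0
          have h2 := hee i.1 i.2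
          show dg (Function.update γ i 0) + (k + 1) * e = N
          rw [zero_mul, add_zero] at this
          have h3 : e = γ i * dv i + dv i := by
            rw [← h2, ← hid]; simp only [dv]; ring
          have h4 : (k + 1) * e = k * e + (γ i * dv i + dv i) := by
            rw [add_mul, one_mul, ← h3]
          omega
        · have e' : mono γ * v i = v i ^ ee i * mono (Function.update γ i 0) := by
            simp only [mono]
            rw [← Finset.mul_prod_erase Finset.univ (fun j ↦ v j ^ (Function.update γ i 0 j))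
              (Finset.mem_univ i), ← Finset.mul_prod_erase Finset.univ (fun j ↦ v j ^ γ j)
              (Finset.mem_univ i)]
            have : ∏ j ∈ Finset.univ.erase i, v j ^ (Function.update γ i 0 j) =
                ∏ j ∈ Finset.univ.erase i, v j ^ γ j :=
              Finset.prod_congr rfl fun j hj ↦ by
                rw [Function.update_of_ne (Finset.ne_of_mem_erase hj)]
            rw [this, Function.update_self, pow_zero, ← hid, pow_succ]
            ring
          change c * mono γ * z * v i = c * mono (Function.update γ i 0) * (v i ^ ee i * z)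
          calc c * mono γ * z * v i = c * (mono γ * v i) * z := by ring
            _ = _ := by rw [e']; ring
    | zero => simp
    | add x y _ _ hx hy => rw [add_mul]; exact AddSubmonoid.add_mem _ hx hy
  intro N
  induction N using Nat.strong_induction_on with
  | _ N ih =>
    intro a ha
    rcases Nat.eq_zero_or_pos N with rfl | hN
    · apply AddSubmonoid.subset_closure
      refine ⟨a, ha, 0, fun i ↦ hee0 _ i.2, 0, 1, ?_, ?_, ?_⟩
      · rw [Submodule.pow_zero, Submodule.mem_one]; exact ⟨1, map_one _⟩
      · simp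
      · simp
    · have ha' : a ∈ Ideal.span (s : Set A) :=
        hspan ▸ HomogeneousIdeal.mem_irrelevant_of_mem 𝒜 hN ha
      have Q : ∀ x ∈ Ideal.span (s : Set A), ∀ r : A, (decompose 𝒜 (r * x) N : A) ∈ S N := by
        intro x hx
        induction hx using Submodule.span_induction with
        | mem e he =>
          intro r
          rw [DirectSum.coe_decompose_mul_of_right_mem 𝒜 N (hv ⟨e, he⟩)]
          split_ifs with hdN
          · have hpos : 0 < dv ⟨e, he⟩ := Nat.pos_of_ne_zero (hdeg0 e he)
            exact step N ⟨e, he⟩ hdN _ (ih _ (by omega) _ (SetLike.coe_mem _))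
          · exact AddSubmonoid.zero_mem _
        | zero => intro r; simp
        | add x y _ _ hx hy =>
          intro r
          rw [mul_add, decompose_add, add_apply, Submodule.coe_add]
          exact AddSubmonoid.add_mem _ (hx r) (hy r)
        | smul t x _ hx =>
          intro r
          rw [smul_eq_mul, ← mul_assoc]
          exact hx (r * t)
      have := Q a ha' 1
      rwa [one_mul, decompose_of_mem_same 𝒜 ha] at this

end Groth.Agent.Lib.Helper7
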