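import Mathlib.AlgebraicGeometry.AffineTransitionLimit
import Mathlib.AlgebraicGeometry.PullbackCarrier
import Mathlib.AlgebraicGeometry.ResidueField

/-!
# Cofiltered limits of schemes with affine transition maps (helper7)

* `lim_exists_preimage`: if a point `x` of `D i` lies in the image of every transition map
  `D j ⟶ D i`, then it lies in the image of the projection `lim D ⟶ D i`.
-/

set_option autoImplicit false
universe u
open CategoryTheory CategoryTheory.Limits AlgebraicGeometry

namespace Groth.Agent.Lib.Helper7

set_option backward.isDefEq.respectTransparency false in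
theorem lim_exists_preimage {I : Type u} [SmallCategory I] [IsCofiltered I]
    (D : I ⥤ Scheme.{u}) (c : Cone D) (hc : IsLimit c)
    [∀ {i j : I} (f : i ⟶ j), IsAffineHom (D.map f)] (i : I) (x : D.obj i)
    (h : ∀ (j : I) (φ : j ⟶ i), x ∈ Set.range (D.map φ)) : ∃ s : c.pt, c.π.app i s = x := by
  let p := (D.obj i).fromSpecResidueField x
  let F : Over i ⥤ Scheme.{u} := Over.post D ⋙ Over.pullback p ⋙ Over.forget _
  let α : F ⟶ Over.forget i ⋙ D := Functor.whiskerRight
    (Functor.whiskerLeft (Over.post D) (Over.mapPullbackAdj p).counit) (Over.forget _)
  let cF : Cone F :=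
    { pt := pullback (c.π.app i) p
      π :=
        { app := fun j => pullback.lift (pullback.fst _ _ ≫ c.π.app j.left) (pullback.snd _ _)
            (by
              have e1 : c.π.app j.left ≫ D.map j.hom = c.π.app i := c.w j.hom
              show pullback.fst _ _ ≫ c.π.app j.left ≫ D.map j.hom = _
              rw [e1]; exact pullback.condition)
          naturality := by
            intro j k f
            apply pullback.hom_ext
            · simp only [F, Functor.comp_map, Over.pullback, Over.forget_map, Over.homMk_left,
                Functor.const_obj_map, Category.assoc, pullback.lift_fst, Over.post_map]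
              rw [← c.w f.left]
              simp
            · simp only [F, Functor.comp_map, Over.pullback, Over.forget_map, Over.homMk_left,
                Functor.const_obj_map, Category.assoc, pullback.lift_snd]
              exact Category.id_comp _ } }
  let cG : Cone (Over.forget i ⋙ D) := c.whisker (Over.forget i)
  have hcG : IsLimit cG := (Functor.Initial.isLimitWhiskerEquiv (Over.forget i) c).symm hc
  let fh : (Cone.postcompose α).obj cF ⟶ cG :=
    { hom := pullback.fst _ _
      w := by
        intro j
        simp [α, cF, cG, F] }
  have hf : ∀ j, IsPullback (cF.π.app j) fh.hom (α.app j) (cG.π.app j) := by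
    intro j
    have e1 : c.π.app j.left ≫ D.map j.hom = c.π.app i := c.w j.hom
    have hα : α.app j = pullback.fst (D.map j.hom) p := by simp [α]; rfl
    have t := (IsPullback.of_hasPullback (D.map j.hom) p).flip
    have h1 : cF.π.app j ≫ pullback.snd (D.map j.hom) p = pullback.snd (c.π.app i) p :=
      pullback.lift_snd _ _ _
    have s0 : IsPullback (cF.π.app j ≫ pullback.snd (D.map j.hom) p)
        (pullback.fst (c.π.app i) p) p (c.π.app j.left ≫ D.map j.hom) := by
      rw [h1]
      convert (IsPullback.of_hasPullback (c.π.app i) p).flip using 1
      all_goals first | rfl | exact e1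
    rw [hα]
    exact IsPullback.of_right s0 (pullback.lift_fst _ _ _) t
  have : IsConnected (Over i) := IsCofiltered.isConnected _
  have hcF : IsLimit cF := isLimitOfIsPullbackOfIsConnected α cF cG fh hf hcG
  have hAff : ∀ j : Over i, IsAffine (F.obj j) := by
    intro j
    have : IsAffineHom (pullback.snd (D.map j.hom) p) :=
      MorphismProperty.pullback_snd _ _ inferInstance
    exact isAffine_of_isAffineHom (pullback.snd (D.map j.hom) p)
  have hne : ∀ j : Over i, Nonempty (F.obj j) := by
    intro j
    obtain ⟨z, hz⟩ := h j.left j.hom
    obtain ⟨w⟩ : Nonempty (Spec ((D.obj i).residueField x)) := inferInstance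
    obtain ⟨t, -, -⟩ := Scheme.Pullback.exists_preimage_pullback (f := D.map j.hom) (g := p) z w
      (by rw [hz, Scheme.fromSpecResidueField_apply])
    exact ⟨t⟩
  have hcpt : ∀ j : Over i, CompactSpace (F.obj j) := fun j => inferInstance
  have hAff' : ∀ {j k : Over i} (f : j ⟶ k), IsAffineHom (F.map f) := fun f => inferInstance
  obtain ⟨y⟩ := Scheme.nonempty_of_isLimit F cF hcF
  refine ⟨pullback.fst (c.π.app i) p y, ?_⟩
  rw [← Scheme.Hom.comp_apply, pullback.condition, Scheme.Hom.comp_apply,
    Scheme.fromSpecResidueField_apply]

end Groth.Agent.Lib.Helper7
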