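import Mathlib.AlgebraicGeometry.Noetherian
import Mathlib.AlgebraicGeometry.Morphisms.QuasiCompact

/-! Helper lemmas (helper7): compactness in locally noetherian spaces, compact open supersets. -/

set_option autoImplicit false
universe u
open CategoryTheory AlgebraicGeometry TopologicalSpace

namespace Groth.Agent.Lib.Helper7

/-- In a space where every point has a noetherian open neighbourhood, every subset of a compact
set is compact. -/
theorem isCompact_of_subset_of_locNoeth {α : Type*} [TopologicalSpace α]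
    (hX : ∀ x : α, ∃ U : Opens α, x ∈ U ∧ NoetherianSpace U) {K t : Set α} (hK : IsCompact K)
    (ht : t ⊆ K) : IsCompact t := by
  choose U hxU hU using hX
  obtain ⟨s, hs⟩ := hK.elim_finite_subcover (fun x : α => (U x : Set α)) (fun x => (U x).isOpen)
    (fun x _ => Set.mem_iUnion.mpr ⟨x, hxU x⟩)
  have : t = ⋃ i ∈ s, t ∩ U i := by
    ext y
    simp only [Set.mem_iUnion, Set.mem_inter_iff, exists_prop]
    constructor
    · intro hy
      obtain ⟨i, hi, hyi⟩ := Set.mem_iUnion₂.mp (hs (ht hy))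
      exact ⟨i, hi, hy, hyi⟩
    · rintro ⟨i, -, hy, -⟩; exact hy
  rw [this]
  refine s.isCompact_biUnion fun i _ => ?_
  have := (NoetherianSpace.isCompact (Subtype.val ⁻¹' t : Set (U i))).image continuous_subtype_val
  convert this using 1
  ext y
  constructor
  · rintro ⟨hy, hyU⟩; exact ⟨⟨y, hyU⟩, hy, rfl⟩
  · rintro ⟨z, hz, rfl⟩; exact ⟨hz, z.2⟩

/-- Every compact subset of a scheme is contained in a compact open. -/
theorem exists_compact_open_superset {Z : Scheme.{u}} {K : Set Z} (hK : IsCompact K) :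
    ∃ W : Z.Opens, IsCompact (W : Set Z) ∧ K ⊆ W := by
  have h : ∀ z : Z, ∃ V : Z.Opens, IsAffineOpen V ∧ z ∈ V := by
    intro z
    obtain ⟨_, ⟨V, hV, rfl⟩, hzV, -⟩ :=
      Z.isBasis_affineOpens.exists_subset_of_mem_open (Set.mem_univ z) isOpen_univ
    exact ⟨V, hV, hzV⟩
  choose V hV hzV using h
  obtain ⟨s, hs⟩ := hK.elim_finite_subcover (fun z => (V z : Set Z)) (fun z => (V z).isOpen)
    (fun z _ => Set.mem_iUnion.mpr ⟨z, hzV z⟩)
  refine ⟨⨆ i ∈ s, V i, ?_, ?_⟩
  · simp only [Opens.coe_iSup]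
    exact s.isCompact_biUnion fun i _ => (hV i).isCompact
  · intro x hx
    have := hs hx
    simp only [Set.mem_iUnion] at this
    obtain ⟨i, hi, hxi⟩ := this
    simp only [Opens.coe_iSup, Set.mem_iUnion, SetLike.mem_coe]
    exact ⟨i, hi, hxi⟩

/-- A locally noetherian scheme has noetherian open neighbourhoods. -/
theorem locNoeth_of_isLocallyNoetherian (X : Scheme.{u}) [IsLocallyNoetherian X] :
    ∀ x : X, ∃ U : X.Opens, x ∈ U ∧ NoetherianSpace U := by
  intro x
  obtain ⟨_, ⟨V, hV, rfl⟩, hxV, -⟩ :=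
    X.isBasis_affineOpens.exists_subset_of_mem_open (Set.mem_univ x) isOpen_univ
  have : IsNoetherianRing Γ(X, V) := IsLocallyNoetherian.component_noetherian ⟨V, hV⟩
  exact ⟨V, hxV, noetherianSpace_of_isAffineOpen V hV⟩

end Groth.Agent.Lib.Helper7
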