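import Groth.Agent.Lib.Helper7.Graded
import Mathlib.Data.ZMod.Basic
import Mathlib.Tactic.LinearCombination

/-!
# Veronese subrings of finite type graded algebras (helper7)

`veronese_subset_adjoin`: if `A = ⨁ 𝒜 n` is of finite type over `𝒜 0` and `d > 0`, there is a
finite set `T` of homogeneous elements of degrees divisible by `d` such that every element of
`𝒜 (n * d)` lies in the `𝒜 0`-subalgebra generated by `T`.
-/

set_option autoImplicit false
universe u

namespace Groth.Agent.Lib.Helper7

open DirectSum

variable {R A : Type u} [CommRing R] [CommRing A] [Algebra R A] (𝒜 : ℕ → Submodule R A)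
  [GradedAlgebra 𝒜]

theorem veronese_subset_adjoin [Algebra.FiniteType (𝒜 0) A] (d : ℕ) (hd : 0 < d) :
    ∃ T : Set A, T.Finite ∧ (∀ t ∈ T, ∃ k, t ∈ 𝒜 (k * d)) ∧
      ∀ n, ∀ a ∈ 𝒜 (n * d), a ∈ Algebra.adjoin (𝒜 0) T := by
  classical
  obtain ⟨s, hs, hs'⟩ := GradedAlgebra.exists_finset_adjoin_eq_top_and_homogeneous_ne_zero 𝒜
  choose! deg hdeg0 hdeg using hs'
  let v : s → A := Subtype.val
  let dv : s → ℕ := fun i ↦ deg i.1
  have hv : ∀ i, v i ∈ 𝒜 (dv i) := fun i ↦ hdeg i.1 i.2
  let mono : (s → ℕ) → A := fun γ ↦ ∏ i, v i ^ γ i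
  let dg : (s → ℕ) → ℕ := fun γ ↦ ∑ i, γ i * dv i
  have hmono : ∀ γ, mono γ ∈ 𝒜 (dg γ) := by
    intro γ
    have := SetLike.prod_pow_mem_graded 𝒜 dv v γ (F := Finset.univ) (fun i _ ↦ hv i)
    simpa [mono, dg, smul_eq_mul] using this
  -- behaviour under updating one exponent
  have mono_update : ∀ γ i k, mono (Function.update γ i k) * v i ^ (γ i) = mono γ * v i ^ k := by
    intro γ i k
    simp only [mono]
    rw [← Finset.mul_prod_erase Finset.univ (fun j ↦ v j ^ (Function.update γ i k j))
      (Finset.mem_univ i), ← Finset.mul_prod_erase Finset.univ (fun j ↦ v j ^ γ j)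
      (Finset.mem_univ i)]
    have : ∏ j ∈ Finset.univ.erase i, v j ^ (Function.update γ i k j) =
        ∏ j ∈ Finset.univ.erase i, v j ^ γ j :=
      Finset.prod_congr rfl fun j hj ↦ by rw [Function.update_of_ne (Finset.ne_of_mem_erase hj)]
    rw [this, Function.update_self]
    ring
  have dg_update : ∀ γ i k, dg (Function.update γ i k) + γ i * dv i = dg γ + k * dv i := by
    intro γ i k
    simp only [dg]
    rw [← Finset.add_sum_erase Finset.univ (fun j ↦ (Function.update γ i k j) * dv j)
      (Finset.mem_univ i), ← Finset.add_sum_erase Finset.univ (fun j ↦ γ j * dv j)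
      (Finset.mem_univ i)]
    have : ∑ j ∈ Finset.univ.erase i, (Function.update γ i k j) * dv j =
        ∑ j ∈ Finset.univ.erase i, γ j * dv j :=
      Finset.sum_congr rfl fun j hj ↦ by rw [Function.update_of_ne (Finset.ne_of_mem_erase hj)]
    rw [this, Function.update_self]
    ring
  let Γ : Set (s → ℕ) := {γ | ∀ i, γ i < d}
  have hΓfin : Γ.Finite := by
    have : Γ = Set.pi Set.univ (fun _ ↦ Set.Iio d) := by
      ext γ; simp [Γ]
    rw [this]
    exact Set.Finite.pi fun _ ↦ Set.finite_Iio d
  let T : Set A := (mono '' {γ | γ ∈ Γ ∧ (dg γ : ZMod d) = 0}) ∪ Set.range (fun i ↦ v i ^ d)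
  have hTfin : T.Finite :=
    ((hΓfin.subset fun γ hγ ↦ hγ.1).image _).union (Set.finite_range _)
  have hTdeg : ∀ t ∈ T, ∃ k, t ∈ 𝒜 (k * d) := by
    rintro t (⟨γ, ⟨-, hγ⟩, rfl⟩ | ⟨i, rfl⟩)
    · obtain ⟨k, hk⟩ := (ZMod.natCast_eq_zero_iff _ _).mp hγ
      exact ⟨k, by rw [mul_comm, ← hk]; exact hmono γ⟩
    · refine ⟨dv i, ?_⟩
      have := SetLike.pow_mem_graded d (hv i)
      rwa [smul_eq_mul, mul_comm] at this
  set C := Algebra.adjoin (𝒜 0) T with hC
  let S : ℕ → AddSubmonoid A := fun N ↦ AddSubmonoid.closure
    {y | ∃ c ∈ C, ∃ γ ∈ Γ, (dg γ : ZMod d) = N ∧ y = c * mono γ}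
  have hspan : (HomogeneousIdeal.irrelevant 𝒜).toIdeal = Ideal.span (s : Set A) :=
    irrelevant_eq_span_of_adjoin_eq_top 𝒜 (s : Set A)
      (fun e he ↦ ⟨deg e, Nat.pos_of_ne_zero (hdeg0 e he), hdeg e he⟩) hs
  have step : ∀ N (i : s), dv i ≤ N → ∀ y ∈ S (N - dv i), y * v i ∈ S N := by
    intro N i hiN y hy
    induction hy using AddSubmonoid.closure_induction with
    | mem y hy =>
      obtain ⟨c, hc, γ, hγ, hdγ, rfl⟩ := hy
      have hcast : ((N - dv i : ℕ) : ZMod d) + (dv i : ZMod d) = (N : ZMod d) := by
        rw [Nat.cast_sub hiN]; ring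
      by_cases hlt : γ i + 1 < d
      · apply AddSubmonoid.subset_closure
        refine ⟨c, hc, Function.update γ i (γ i + 1), ?_, ?_, ?_⟩
        · intro j
          by_cases hj : j = i
          · subst hj; simpa using hlt
          · rw [Function.update_of_ne hj]; exact hγ j
        · have := dg_update γ i (γ i + 1)
          have h2 : dg (Function.update γ i (γ i + 1)) = dg γ + dv i := by
            rw [add_mul, one_mul] at this; omega
          rw [h2, Nat.cast_add, hdγ, hcast]
        · have := mono_update γ i (γ i + 1)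
          rw [pow_succ, ← mul_assoc] at this
          have hv0 : v i ^ γ i ≠ 0 ∨ True := Or.inr trivial
          clear hv0
          -- `mono γ * v i = mono (update γ i (γ i + 1))` from the identity with `γ i` powers
          have e : mono γ * v i = mono (Function.update γ i (γ i + 1)) := by
            simp only [mono]
            rw [← Finset.mul_prod_erase Finset.univ (fun j ↦ v j ^ (Function.update γ i (γ i + 1) j))
              (Finset.mem_univ i), ← Finset.mul_prod_erase Finset.univ (fun j ↦ v j ^ γ j)
              (Finset.mem_univ i)]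
            have : ∏ j ∈ Finset.univ.erase i, v j ^ (Function.update γ i (γ i + 1) j) =
                ∏ j ∈ Finset.univ.erase i, v j ^ γ j :=
              Finset.prod_congr rfl fun j hj ↦ by
                rw [Function.update_of_ne (Finset.ne_of_mem_erase hj)]
            rw [this, Function.update_self, pow_succ]
            ring
          rw [mul_assoc, e]
      · have hid : γ i + 1 = d := by have := hγ i; omega
        apply AddSubmonoid.subset_closure
        refine ⟨c * v i ^ d, C.mul_mem hc (Algebra.subset_adjoin (Or.inr ⟨i, rfl⟩)),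
          Function.update γ i 0, ?_, ?_, ?_⟩
        · intro j
          by_cases hj : j = i
          · subst hj; simpa using hd
          · rw [Function.update_of_ne hj]; exact hγ j
        · have := dg_update γ i 0
          rw [zero_mul, add_zero] at this
          have h2 := congrArg (Nat.cast : ℕ → ZMod d) this
          push_cast at h2
          have h3 : (γ i : ZMod d) = -1 := by
            have : ((γ i + 1 : ℕ) : ZMod d) = 0 := by rw [hid]; exact ZMod.natCast_self d
            push_cast at this
            linear_combination this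
          rw [h3, hdγ] at h2
          rw [← hcast]
          linear_combination h2
        · have e : mono γ * v i = v i ^ d * mono (Function.update γ i 0) := by
            simp only [mono]
            rw [← Finset.mul_prod_erase Finset.univ (fun j ↦ v j ^ (Function.update γ i 0 j))
              (Finset.mem_univ i), ← Finset.mul_prod_erase Finset.univ (fun j ↦ v j ^ γ j)
              (Finset.mem_univ i)]
            have : ∏ j ∈ Finset.univ.erase i, v j ^ (Function.update γ i 0 j) =
                ∏ j ∈ Finset.univ.erase i, v j ^ γ j :=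
              Finset.prod_congr rfl fun j hj ↦ by
                rw [Function.update_of_ne (Finset.ne_of_mem_erase hj)]
            rw [this, Function.update_self, pow_zero, ← hid, pow_succ]
            ring
          rw [mul_assoc, e]; ring
    | zero => simp
    | add x y _ _ hx hy => rw [add_mul]; exact AddSubmonoid.add_mem _ hx hy
  have key : ∀ N, ∀ a ∈ 𝒜 N, a ∈ S N := by
    intro N
    induction N using Nat.strong_induction_on with
    | _ N ih =>
      intro a ha
      rcases Nat.eq_zero_or_pos N with rfl | hN
      · apply AddSubmonoid.subset_closure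
        refine ⟨a, Subalgebra.algebraMap_mem C (⟨a, ha⟩ : 𝒜 0), 0, fun _ ↦ hd, ?_, ?_⟩
        · simp [dg]
        · simp [mono]
      · have ha' : a ∈ Ideal.span (s : Set A) := hspan ▸ HomogeneousIdeal.mem_irrelevant_of_mem 𝒜 hN ha
        have Q : ∀ x ∈ Ideal.span (s : Set A), ∀ r : A, (decompose 𝒜 (r * x) N : A) ∈ S N := by
          intro x hx
          induction hx using Submodule.span_induction with
          | mem e he =>
            intro r
            rw [DirectSum.coe_decompose_mul_of_right_mem 𝒜 N (hv ⟨e, he⟩)]
            split_ifs with hdN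
            · have hpos : 0 < dv ⟨e, he⟩ := Nat.pos_of_ne_zero (hdeg0 e he)
              exact step N ⟨e, he⟩ hdN _ (ih _ (by omega) _ (SetLike.coe_mem _))
            · exact AddSubmonoid.zero_mem _
          | zero => intro r; simp
          | add x y _ _ hx hy =>
            intro r
            rw [mul_add, decompose_add, add_apply, Submodule.coe_add]
            exact AddSubmonoid.add_mem _ (hx r) (hy r)
          | smul t x _ hx =>
            intro r
            rw [smul_eq_mul, ← mul_assoc]
            exact hx (r * t)
        have := Q a ha' 1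
        rwa [one_mul, decompose_of_mem_same 𝒜 ha] at this
  refine ⟨T, hTfin, hTdeg, fun n a ha ↦ ?_⟩
  have hS : ∀ y ∈ S (n * d), y ∈ C := by
    intro y hy
    induction hy using AddSubmonoid.closure_induction with
    | mem y hy =>
      obtain ⟨c, hc, γ, hγ, hdγ, rfl⟩ := hy
      refine C.mul_mem hc (Algebra.subset_adjoin (Or.inl ⟨γ, ⟨hγ, ?_⟩, rfl⟩))
      rw [hdγ]; push_cast; simp
    | zero => exact C.zero_mem
    | add x y _ _ hx hy => exact C.add_mem hx hy
  exact hS a (key _ a ha)

end Groth.Agent.Lib.Helper7
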